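import Cfsg.Agent.H572.RIM.Frob

/-!
# S4816 (RIM), module side: `EK p S` from Frobenius pairs (helper572)

* `ek_frob1` : `FP r x a` in `S`, `x` of order `p`, `p ∤ r`, `a ≠ 1`, `p² ∤ |S|`, `|S| < p ^ p`: `EK p S`;
* `ek_frob2` : `FP 2 x a` in `S`, `|S| < p ^ (2 p - 1)`, `a y = y⁻¹ a`, `y` of prime order `q ≠ 2, p` with
  `q ∤ p ^ k - 1` for `1 ≤ k ≤ 8`: `EK p S`.
-/

set_option autoImplicit false
set_option linter.unusedSectionVars false
set_option linter.style.haveILetI false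

namespace Cfsg.Agent.H572.RIM

open Module Cfsg.Agent.H887.RIM Cfsg.Agent.H425.RIM.Tool Cfsg.Agent.H665.RIM Cfsg.Agent.H229.RIM

universe u

section sit

variable {p : ℕ} {H V S : Type*} [Group H] [Finite H] [AddCommGroup V] [Finite V] [DistribMulAction H V]
  [Group S] {K N : Subgroup H} {φ : N →* ℂˣ} {π : H →* S} (A : Sit (V := V) p K N φ π)

theorem index_mul_le [Finite S] (t : S) (ht : orderOf t = p) :
    (Subgroup.normalizer ((Subgroup.zpowers t : Subgroup S) : Set S)).index * p ≤ Nat.card S := by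
  rw [← (Subgroup.normalizer ((Subgroup.zpowers t : Subgroup S) : Set S)).card_mul_index, mul_comm]
  refine Nat.mul_le_mul_right _ ?_
  rw [← ht, ← Nat.card_zpowers]
  exact Nat.card_le_card_of_injective _ (Subgroup.inclusion_injective (Subgroup.le_normalizer (H := Subgroup.zpowers t)))

include A

/-- the codimension of the fixed space of an element of order `p` -/
theorem codim_lt (hp : p.Prime) (hsq : ¬ p ^ 2 ∣ Nat.card S) {D n c : ℕ} (hcard : Nat.card S < p ^ (D + 1)) {x : H}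
    (hx : orderOf x = p) (hx' : orderOf (π x) = p) (hn : Nat.card V = p ^ n)
    (hc : Nat.card {v : V // x • v = v} = p ^ c) : n < c + D := by
  haveI : Finite S := Finite.of_surjective _ A.surj
  have h1 := A.union hp hsq hx
  have h2 : Nat.card ↥(fx V x) = p ^ c := hc
  rw [h2, hn] at h1
  have h3 := index_mul_le (π x) hx'
  have h4 : p ^ n * p < p ^ (c + D) * p := by
    calc p ^ n * p ≤ ((Subgroup.normalizer ((Subgroup.zpowers (π x) : Subgroup S) : Set S)).index * p ^ c) * p :=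
          Nat.mul_le_mul_right _ h1
      _ = ((Subgroup.normalizer ((Subgroup.zpowers (π x) : Subgroup S) : Set S)).index * p) * p ^ c := by ring
      _ ≤ Nat.card S * p ^ c := Nat.mul_le_mul_right _ h3
      _ < p ^ (D + 1) * p ^ c := Nat.mul_lt_mul_of_pos_right hcard (pow_pos hp.pos c)
      _ = p ^ (c + D) * p := by ring
  exact (Nat.pow_lt_pow_iff_right hp.one_lt).1 (Nat.lt_of_mul_lt_mul_right h4)

theorem act_ne {g : H} (hg : π g ≠ 1) : ¬ ∀ v : V, g • v = v := by
  intro h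
  apply hg
  have h1 : g ∈ K := A.core.NK ((A.core.ker g).1 h)
  rw [← A.ker] at h1
  exact h1

end sit

/-- **`EK p S` from a Frobenius pair.** -/
theorem ek_frob1 {p r : ℕ} (hp : p.Prime) (hpr : ¬ p ∣ r) {S : Type u} [Group S] (hsq : ¬ p ^ 2 ∣ Nat.card S)
    (hcard : Nat.card S < p ^ p) {x a : S} (hx : orderOf x = p) (h : FP r x a) (ha : a ≠ 1) : EK p S := by
  intro H V _ _ _ _ _ K N φ π hC hs hk hcen
  have A : Sit (V := V) p K N φ π := ⟨hC, hs, hk, hcen⟩
  obtain ⟨x', hx', ho⟩ := A.exists_lift_p hp hx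
  subst hx'
  obtain ⟨α, hα, hF⟩ := FP.lift hs (fun k hk h => A.K_cen hk h) h
  obtain ⟨K', _, _, _, W, _, _, _, ρ, hcV, hker, hfix⟩ := exists_lin (H := H) hp A.core.exp
  have h1 : ρ α ≠ 1 := fun e => act_ne A (g := α) (by rw [hα]; exact ha) ((hker α).1 e)
  have h2 := hF.lin1 ρ hp hpr (by rw [← ho]; exact pow_orderOf_eq_one x') h1
  have h3 := codim_lt A hp hsq (D := p - 1) (by rwa [Nat.sub_add_cancel hp.one_lt.le]) ho hx hcV (hfix x')
  omega

/-- **`EK p S` from a Frobenius pair and a dihedral group.** -/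
theorem ek_frob2 {p q : ℕ} (hp : p.Prime) (hp2 : p ≠ 2) {S : Type u} [Group S] (hsq : ¬ p ^ 2 ∣ Nat.card S)
    (hcard : Nat.card S < p ^ (2 * p - 1)) {x a y : S} (hx : orderOf x = p) (h : FP 2 x a)
    (hq : q.Prime) (hq2 : q ≠ 2) (hqp : q ≠ p) (hy : orderOf y = q) (hay : a * y = y⁻¹ * a)
    (hmod : ∀ k, 1 ≤ k → k ≤ 8 → ¬ q ∣ p ^ k - 1) : EK p S := by
  intro H V _ _ _ _ _ K N φ π hC hs hk hcen
  have A : Sit (V := V) p K N φ π := ⟨hC, hs, hk, hcen⟩
  obtain ⟨x', hx', ho⟩ := A.exists_lift_p hp hx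
  subst hx'
  obtain ⟨α, hα, hF⟩ := FP.lift hs (fun k hk h => A.K_cen hk h) h
  obtain ⟨y', hy'⟩ := hs y
  obtain ⟨K', _, _, _, W, _, _, _, ρ, hcV, hker, hfix⟩ := exists_lin (H := H) hp A.core.exp
  have h3 := codim_lt A hp hsq (D := 2 * (p - 1)) (by
    have : 2 * (p - 1) + 1 = 2 * p - 1 := by have := hp.one_lt; omega
    rwa [this]) ho hx hcV (hfix x')
  have h4 := hF.lin2 ρ hp hp2 (by rw [← ho]; exact pow_orderOf_eq_one x') h3
  have h5 := codim_mul ρ α y' h4
  -- the element `z` over `y⁻²`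
  obtain ⟨z, hz⟩ : ∃ z, z = α * (y' * α * y'⁻¹) := ⟨_, rfl⟩
  rw [← hz] at h5
  have haa : a * a = 1 := by rw [← pow_two]; exact h.ar
  have hπz : π z = (y ^ 2)⁻¹ := by
    rw [hz, map_mul, map_mul, map_mul, map_inv, hα, hy']
    calc a * (y * a * y⁻¹) = (a * y) * a * y⁻¹ := by group
      _ = y⁻¹ * (a * a) * y⁻¹ := by rw [hay]; group
      _ = (y ^ 2)⁻¹ := by rw [haa, pow_two]; group
  have hoz : orderOf (π z) = q := by
    rw [hπz, orderOf_inv, Nat.Coprime.orderOf_pow (by rw [hy]; exact (Nat.coprime_primes hq Nat.prime_two).2 hq2), hy]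
  obtain ⟨j, m, hm, hjm⟩ := Nat.exists_eq_pow_mul_and_not_dvd (orderOf_pos z).ne' q hq.one_lt.ne'
  have hwj : (z ^ m) ^ q ^ j = 1 := by rw [← pow_mul, mul_comm, ← hjm, pow_orderOf_eq_one]
  have hw1 : π (z ^ m) ≠ 1 := by
    intro e
    rw [map_pow] at e
    have := orderOf_dvd_of_pow_eq_one e
    rw [hoz] at this
    exact hm this
  -- its fixed space
  have h6 : finrank K' (LinearMap.ker (ρ z - 1)) ≤ finrank K' (LinearMap.ker (ρ (z ^ m) - 1)) := by
    refine Submodule.finrank_mono ?_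
    intro v hv
    rw [LinearMap.mem_ker, LinearMap.sub_apply, Module.End.one_apply, sub_eq_zero] at hv ⊢
    have : ∀ i : ℕ, ρ (z ^ i) v = v := by
      intro i
      induction i with
      | zero => rw [pow_zero, map_one]; rfl
      | succ i ih => rw [pow_succ, map_mul, Module.End.mul_apply, hv, ih]
    exact this m
  have h7 : finrank K' (LinearMap.ker (ρ (z ^ m) - 1)) ≤ finrank K' W := Submodule.finrank_le _
  have h8 : Nat.card V ≡ Nat.card {v : V // (z ^ m) • v = v} [MOD q] := by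
    have : Fact q.Prime := ⟨hq⟩
    have h1 : IsPGroup q (Subgroup.zpowers (z ^ m)) := by
      have h2 : orderOf (z ^ m) ∣ q ^ j := orderOf_dvd_of_pow_eq_one hwj
      obtain ⟨i, -, hi⟩ := (Nat.dvd_prime_pow hq).1 h2
      exact IsPGroup.of_card (n := i) (by rw [Nat.card_zpowers, hi])
    have h2 := h1.card_modEq_card_fixedPoints V
    have h3 : Nat.card ↑(MulAction.fixedPoints (Subgroup.zpowers (z ^ m)) V) = Nat.card {v : V // (z ^ m) • v = v} := by
      refine Nat.card_congr (Equiv.subtypeEquivRight fun v => ?_)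
      constructor
      · intro hv
        exact hv ⟨z ^ m, Subgroup.mem_zpowers _⟩
      · rintro hv ⟨g, hg⟩
        have h4 : Subgroup.zpowers (z ^ m) ≤ MulAction.stabilizer H v := by
          rw [Subgroup.zpowers_le]
          exact hv
        exact h4 hg
    rw [h3] at h2
    exact h2
  rw [hcV, hfix (z ^ m)] at h8
  obtain ⟨k, hk'⟩ := Nat.exists_eq_add_of_le h7
  have h9 : k ≤ 8 := by omega
  rw [hk'] at h8
  by_cases hk0 : k = 0
  · apply act_ne A hw1
    rw [← hker]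
    rw [hk0, add_zero] at hk'
    have h10 : LinearMap.ker (ρ (z ^ m) - 1) = ⊤ := Submodule.eq_top_of_finrank_eq hk'.symm
    rw [LinearMap.ker_eq_top, sub_eq_zero] at h10
    exact h10
  · refine hmod k (by omega) h9 ?_
    have h11 : q ∣ p ^ (finrank K' (LinearMap.ker (ρ (z ^ m) - 1)) + k) - p ^ finrank K' (LinearMap.ker (ρ (z ^ m) - 1)) :=
      (Nat.modEq_iff_dvd' (Nat.pow_le_pow_right hp.pos (Nat.le_add_right _ _))).1 h8.symm
    rw [pow_add, ← Nat.mul_sub_one] at h11
    refine (hq.dvd_mul.1 h11).resolve_left ?_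
    intro h12
    exact hqp ((Nat.prime_dvd_prime_iff_eq hq hp).1 (hq.dvd_of_dvd_pow h12))

end Cfsg.Agent.H572.RIM
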