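import Cfsg.Agent.H572.RIM.Lift

/-!
# The subgroup generated by the conjugates of a Frobenius pair (helper572, for S4816)
-/

set_option autoImplicit false
set_option linter.unusedSectionVars false

namespace Cfsg.Agent.H572.RIM

variable {L : Type*} [Group L] {r : ℕ} {x a : L}

/-- the generators -/
def FS (x a : L) : Set L := {a, x * a * x⁻¹, x ^ 2 * a * (x ^ 2)⁻¹}

/-- the group generated by the conjugates -/
def FA (x a : L) : Subgroup L := Subgroup.closure (FS x a)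

theorem g0 (x a : L) : a ∈ FA x a := Subgroup.subset_closure (Or.inl rfl)
theorem g1 (x a : L) : x * a * x⁻¹ ∈ FA x a := Subgroup.subset_closure (Or.inr (Or.inl rfl))
theorem g2 (x a : L) : x ^ 2 * a * (x ^ 2)⁻¹ ∈ FA x a := Subgroup.subset_closure (Or.inr (Or.inr rfl))

theorem FP.c3 (h : FP r x a) : (x * a * x⁻¹) * (x ^ 2 * a * (x ^ 2)⁻¹) = (x ^ 2 * a * (x ^ 2)⁻¹) * (x * a * x⁻¹) := by
  have h1 : (x * a * x⁻¹) * (x ^ 2 * a * (x ^ 2)⁻¹) = x * (a * (x * a * x⁻¹)) * x⁻¹ := by rw [pow_two]; group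
  have h2 : (x ^ 2 * a * (x ^ 2)⁻¹) * (x * a * x⁻¹) = x * ((x * a * x⁻¹) * a) * x⁻¹ := by rw [pow_two]; group
  rw [h1, h2, h.c1]

theorem FP.commS (h : FP r x a) : ∀ u ∈ FS x a, ∀ v ∈ FS x a, u * v = v * u := by
  rintro u (rfl | rfl | rfl) v (rfl | rfl | rfl)
  · rfl
  · exact h.c1
  · exact h.c2
  · exact h.c1.symm
  · rfl
  · exact h.c3
  · exact h.c2.symm
  · exact h.c3.symm
  · rfl

theorem FP.comm (h : FP r x a) : ∀ u ∈ FA x a, ∀ v ∈ FA x a, u * v = v * u := by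
  have h1 : FA x a ≤ Subgroup.centralizer (FS x a) := by
    rw [FA, Subgroup.closure_le]
    intro u hu
    rw [SetLike.mem_coe, Subgroup.mem_centralizer_iff]
    intro v hv
    exact h.commS v hv u hu
  have h2 : FA x a ≤ Subgroup.centralizer (FA x a : Set L) := by
    conv_lhs => rw [FA]
    rw [Subgroup.closure_le]
    intro u hu
    rw [SetLike.mem_coe, Subgroup.mem_centralizer_iff]
    intro v hv
    exact (Subgroup.mem_centralizer_iff.1 (h1 hv) u hu).symm
  intro u hu v hv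
  exact (Subgroup.mem_centralizer_iff.1 (h2 hv) u hu)

theorem FP.norm (h : FP r x a) : ∀ u ∈ FA x a, x * u * x⁻¹ ∈ FA x a := by
  intro u hu
  induction hu using Subgroup.closure_induction with
  | mem u hu =>
    rcases hu with rfl | rfl | rfl
    · exact g1 x _
    · have h1 : x * (x * a * x⁻¹) * x⁻¹ = x ^ 2 * a * (x ^ 2)⁻¹ := by rw [pow_two]; group
      rw [h1]
      exact g2 x a
    · have h1 : x * (x ^ 2 * a * (x ^ 2)⁻¹) * x⁻¹ = x ^ 3 * a * (x ^ 3)⁻¹ := by rw [pow_succ x 2, pow_two]; group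
      rw [h1, h.third]
      exact mul_mem (g0 x a) (g1 x a)
  | one => rw [mul_one, mul_inv_cancel]; exact one_mem _
  | mul u v _ _ hu hv =>
    have h1 : x * (u * v) * x⁻¹ = (x * u * x⁻¹) * (x * v * x⁻¹) := by group
    rw [h1]
    exact mul_mem hu hv
  | inv u _ hu =>
    have h1 : x * u⁻¹ * x⁻¹ = (x * u * x⁻¹)⁻¹ := by group
    rw [h1]
    exact inv_mem hu

theorem FP.exp (h : FP r x a) : ∀ u ∈ FA x a, u ^ r = 1 := by
  intro u hu
  induction hu using Subgroup.closure_induction with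
  | mem u hu =>
    rcases hu with rfl | rfl | rfl
    · exact h.ar
    · rw [conj_pow, h.ar, mul_one, mul_inv_cancel]
    · rw [conj_pow, h.ar, mul_one, mul_inv_cancel]
  | one => exact one_pow _
  | mul u v hu hv hu' hv' =>
    rw [(show Commute u v from h.comm u hu v hv).mul_pow, hu', hv', mul_one]
  | inv u _ hu => rw [inv_pow, hu, inv_one]

theorem FP.card_ne [Finite L] (h : FP r x a) {p : ℕ} (hp : p.Prime) (hpr : ¬ p ∣ r) : ¬ p ∣ Nat.card (FA x a) := by
  intro hd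
  have : Fact p.Prime := ⟨hp⟩
  obtain ⟨u, hu⟩ := exists_prime_orderOf_dvd_card' p hd
  apply hpr
  rw [← hu]
  refine orderOf_dvd_of_pow_eq_one (Subtype.ext ?_)
  exact h.exp u u.2

theorem ext_char {M : Type*} [Group M] {χ χ' : FA x a →* M} (h0 : χ ⟨a, g0 x a⟩ = χ' ⟨a, g0 x a⟩)
    (h1 : χ ⟨_, g1 x a⟩ = χ' ⟨_, g1 x a⟩) (h2 : χ ⟨_, g2 x a⟩ = χ' ⟨_, g2 x a⟩) : χ = χ' := by
  have key : ∀ u (hu : u ∈ FA x a), χ ⟨u, hu⟩ = χ' ⟨u, hu⟩ := by
    intro u hu
    induction hu using Subgroup.closure_induction with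
    | mem u hu =>
      rcases hu with rfl | rfl | rfl
      · exact h0
      · exact h1
      · exact h2
    | one => exact (map_one χ).trans (map_one χ').symm
    | mul u v hu hv hu' hv' =>
      have e1 := map_mul χ ⟨u, hu⟩ ⟨v, hv⟩
      have e2 := map_mul χ' ⟨u, hu⟩ ⟨v, hv⟩
      rw [hu', hv', ← e2] at e1
      exact e1
    | inv u hu hu' =>
      have e1 := map_inv χ ⟨u, hu⟩
      have e2 := map_inv χ' ⟨u, hu⟩
      rw [hu', ← e2] at e1
      exact e1
  ext ⟨u, hu⟩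
  exact key u hu

end Cfsg.Agent.H572.RIM
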