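import Cfsg.Agent.H425.RIM.Tool
import Cfsg.Agent.H887.RIM.AT2
import Cfsg.Agent.H572.RIM.FA

/-!
# S4816 (RIM), module side: Frobenius pairs (helper572)

`FP r x a` (`Lift.lean`): `a ^ r = 1`, `⟨a, a^x, a^{x²}⟩` abelian, `a^{x³} = a a^x`.

* `ek_frob1` : `FP r x a` in `S`, `x` of order `p`, `p ∤ r`, `a ≠ 1`, `p² ∤ |S|`, `|S| < p ^ p`: `EK p S`;
* `ek_frob2` : `FP 2 x a` in `S`, `|S| < p ^ (2 p - 1)`, `a y = y⁻¹ a`, `y` of prime order `q ≠ 2` with
  `q ∤ p ^ k - 1` for `1 ≤ k ≤ 8`: `EK p S`.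
-/

set_option autoImplicit false
set_option linter.unusedSectionVars false
set_option linter.style.haveILetI false

namespace Cfsg.Agent.H572.RIM

open Module Cfsg.Agent.H887.RIM Cfsg.Agent.H912.Bd

section perm

variable {K V : Type*} [Field K] [AddCommGroup V] [Module K V] {I : Type*} [Fintype I]
  [DecidableEq I] {W : I → Submodule K V}

/-- **a regular orbit** -/
theorem fix_orbit (hW : Function.Bijective (DirectSum.coeLinearMap W)) {g : V →ₗ[K] V} {σ : Equiv.Perm I}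
    (hg : ∀ i, ∀ w ∈ W i, g w ∈ W (σ i)) [FiniteDimensional K V] (hinj : Function.Injective g) {s : ℕ} (hs : s.Prime)
    (hσ : σ ^ s = 1) {i : I} (hi : σ i ≠ i) :
    finrank K (LinearMap.ker (g - 1)) + (s - 1) * finrank K (W i) ≤ finrank K V := by
  have h1 := fix_le hW hg hinj hs hσ
  have h2 : s * finrank K (W i) ≤ ∑ i with σ i ≠ i, finrank K (W i) := by
    have hsub : (Finset.range s).image (fun k => (σ ^ k) i) ⊆ Finset.univ.filter fun i => σ i ≠ i := by
      intro j hj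
      obtain ⟨k, -, rfl⟩ := Finset.mem_image.1 hj
      refine Finset.mem_filter.2 ⟨Finset.mem_univ _, ?_⟩
      intro h
      apply hi
      have h2 : (σ ^ k) (σ i) = (σ ^ k) i := by
        rw [← Equiv.Perm.mul_apply, ← pow_succ, pow_succ', Equiv.Perm.mul_apply, h]
      exact (σ ^ k).injective h2
    refine le_trans ?_ (Finset.sum_le_sum_of_subset hsub)
    rw [Finset.sum_image]
    · calc s * finrank K (W i) = ∑ _k ∈ Finset.range s, finrank K (W i) := by
            rw [Finset.sum_const, Finset.card_range, smul_eq_mul]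
        _ ≤ _ := Finset.sum_le_sum fun k _ => finrank_le_pow hg hinj k _
    · intro a ha b hb h
      exact pow_inj hs hσ hi (Finset.mem_range.1 ha) (Finset.mem_range.1 hb) h
  have h3 : s * (finrank K (LinearMap.ker (g - 1)) + (s - 1) * finrank K (W i)) ≤ s * finrank K V := by
    refine le_trans ?_ h1
    rw [mul_add, ← mul_assoc s, mul_comm s (s - 1), mul_assoc (s - 1)]
    exact Nat.add_le_add_left (Nat.mul_le_mul_left _ h2) _
  exact Nat.le_of_mul_le_mul_left h3 hs.pos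

end perm

section wts

variable {K : Type*} [Field K] {W : Type*} [AddCommGroup W] [Module K W] {L : Type*} [Group L]
  (ρ : L →* Module.End K W) {A : Subgroup L} [FiniteDimensional K W] [IsAlgClosed K] [Finite A]
  (hA : ∀ a ∈ A, ∀ b ∈ A, a * b = b * a) (hN : (Nat.card A : K) ≠ 0)
include hA hN

/-- the orbit of one weight -/
theorem wt_codim {x : L} (hx : ∀ a ∈ A, x * a * x⁻¹ ∈ A) {s : ℕ} (hs : s.Prime) (hxs : x ^ s = 1)
    {χ : A →* Kˣ} (hχ : χ.comp (cjA hx) ≠ χ) :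
    finrank K (LinearMap.ker (ρ x - 1)) + (s - 1) * finrank K (wc ρ A χ) ≤ finrank K W := by
  classical
  haveI : Fintype (A →* Kˣ) := Fintype.ofFinite _
  have hX := norm_zpowers hx
  letI := cact K hX
  let x' : Subgroup.zpowers x := ⟨x, Subgroup.mem_zpowers x⟩
  let σ : Equiv.Perm (A →* Kˣ) := MulAction.toPerm x'
  have hx's : x' ^ s = 1 := Subtype.ext hxs
  have hσ : σ ^ s = 1 := by
    have h : MulAction.toPermHom (Subgroup.zpowers x) (A →* Kˣ) x' ^ s = 1 := by rw [← map_pow, hx's, map_one]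
    exact h
  have hg : ∀ χ, ∀ w ∈ wc ρ A χ, ρ x w ∈ wc ρ A (σ χ) := by
    intro χ w hw
    exact map_wc ρ (hX _ ((x'⁻¹ : Subgroup.zpowers x)).2) hw
  refine fix_orbit (wc_bij ρ hA hN) hg (rho_injective ρ x) hs hσ (i := χ) ?_
  intro h
  apply hχ
  have h2 : x'⁻¹ • χ = χ := by
    rw [inv_smul_eq_iff]
    exact h.symm
  have h3 : x'⁻¹ • χ = χ.comp (cjA hx) := by
    ext a
    change ((χ (cjA _ a) : Kˣ) : K) = χ (cjA _ a)
    congr 2
    ext
    simp [cjA_coe, x']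
  rw [← h3, h2]

/-- the fixed space of an element of `A` -/
theorem codim_le (c : A) (T : Finset (A →* Kˣ)) (hT : ∀ χ : A →* Kˣ, χ c ≠ 1 → χ ∈ T) :
    finrank K W ≤ finrank K (LinearMap.ker (ρ (c : L) - 1)) + ∑ χ ∈ T, finrank K (wc ρ A χ) := by
  classical
  haveI : Fintype (A →* Kˣ) := Fintype.ofFinite _
  have hW := wc_bij ρ hA hN
  let Φ : W →ₗ[K] ((χ : T) → wc ρ A (χ : A →* Kˣ)) :=
    LinearMap.pi fun χ => LinearMap.codRestrict (wc ρ A (χ : A →* Kˣ)) (cmp hW (χ : A →* Kˣ)) fun v => cmp_mem hW _ _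
  have h1 := LinearMap.finrank_range_add_finrank_ker Φ
  have h2 : finrank K (LinearMap.range Φ) ≤ ∑ χ ∈ T, finrank K (wc ρ A χ) := by
    refine (Submodule.finrank_le _).trans ?_
    rw [Module.finrank_pi_fintype]
    exact (Finset.sum_coe_sort T fun χ => finrank K (wc ρ A χ)).le
  have h3 : finrank K (LinearMap.ker Φ) ≤ finrank K (LinearMap.ker (ρ (c : L) - 1)) := by
    refine Submodule.finrank_mono ?_
    intro v hv
    rw [LinearMap.mem_ker, LinearMap.sub_apply, Module.End.one_apply, sub_eq_zero]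
    have h4 : ∀ χ : A →* Kˣ, ρ (c : L) (cmp hW χ v) = cmp hW χ v := by
      intro χ
      by_cases h5 : χ c = 1
      · have h6 := mem_wc.1 (cmp_mem hW χ v) c
        rw [h6, h5, Units.val_one, one_smul]
      · have h6 : cmp hW χ v = 0 := congrArg Subtype.val (congrFun (LinearMap.mem_ker.1 hv) ⟨χ, hT χ h5⟩)
        rw [h6, map_zero]
    conv_lhs => rw [← sum_cmp hW v]
    rw [map_sum, Finset.sum_congr rfl fun χ _ => h4 χ, sum_cmp hW v]
  omega

end wts

section fp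

variable {K : Type*} [Field K] {L : Type*} [Group L] {r : ℕ} {x a : L}

theorem FP.moved {M : Type*} [Group M] (h : FP r x a) {χ : FA x a →* M} (hχ : χ ⟨a, g0 x a⟩ ≠ 1) :
    χ.comp (cjA h.norm) ≠ χ := by
  intro he
  apply hχ
  have e0 : cjA h.norm ⟨a, g0 x a⟩ = ⟨_, g1 x a⟩ := rfl
  have e1 : cjA h.norm ⟨_, g1 x a⟩ = ⟨_, g2 x a⟩ := by
    apply Subtype.ext
    change x * (x * a * x⁻¹) * x⁻¹ = x ^ 2 * a * (x ^ 2)⁻¹
    rw [pow_two]; group
  have e2 : cjA h.norm ⟨_, g2 x a⟩ = ⟨a, g0 x a⟩ * ⟨_, g1 x a⟩ := by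
    apply Subtype.ext
    change x * (x ^ 2 * a * (x ^ 2)⁻¹) * x⁻¹ = a * (x * a * x⁻¹)
    rw [← h.third, pow_succ x 2, pow_two]; group
  have f0 : χ ⟨_, g1 x a⟩ = χ ⟨a, g0 x a⟩ := by
    have := DFunLike.congr_fun he ⟨a, g0 x a⟩
    rwa [MonoidHom.comp_apply, e0] at this
  have f1 : χ ⟨_, g2 x a⟩ = χ ⟨_, g1 x a⟩ := by
    have := DFunLike.congr_fun he ⟨_, g1 x a⟩
    rwa [MonoidHom.comp_apply, e1] at this
  have f2 : χ ⟨a, g0 x a⟩ * χ ⟨_, g1 x a⟩ = χ ⟨_, g2 x a⟩ := by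
    have := DFunLike.congr_fun he ⟨_, g2 x a⟩
    rwa [MonoidHom.comp_apply, e2, map_mul] at this
  rw [f1] at f2
  exact mul_eq_right.1 f2

theorem two_vals {u v : Kˣ} (hu : u ^ 2 = 1) (hv : v ^ 2 = 1) (h : u = 1 ↔ v = 1) : u = v := by
  have key : ∀ w : Kˣ, w ^ 2 = 1 → w = 1 ∨ w = -1 := by
    intro w hw
    have h1 : (w : K) * w = 1 := by
      have := congrArg Units.val hw
      rwa [pow_two, Units.val_mul, Units.val_one] at this
    rcases mul_self_eq_one_iff.1 h1 with h2 | h2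
    · exact Or.inl (Units.ext h2)
    · exact Or.inr (Units.ext (by rw [h2, Units.val_neg, Units.val_one]))
  rcases key u hu with h1 | h1
  · rw [h1, h.1 h1]
  · rcases key v hv with h2 | h2
    · rw [h2, h.2 h2]
    · rw [h1, h2]

theorem card_char_le (h : FP 2 x a) (T : Finset (FA x a →* Kˣ)) (hT : ∀ χ ∈ T, χ ⟨a, g0 x a⟩ ≠ 1) : T.card ≤ 4 := by
  classical
  let f : (FA x a →* Kˣ) → Bool × Bool := fun χ => (decide (χ ⟨_, g1 x a⟩ = 1), decide (χ ⟨_, g2 x a⟩ = 1))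
  have h1 : (T.image f).card ≤ 4 := by
    refine (Finset.card_le_univ _).trans ?_
    decide
  rw [Finset.card_image_of_injOn] at h1
  · exact h1
  intro χ hχ χ' hχ' he
  have sq : ∀ (ψ : FA x a →* Kˣ) (u : FA x a), ψ u ^ 2 = 1 := by
    intro ψ u
    rw [← map_pow]
    have : u ^ 2 = 1 := Subtype.ext (h.exp u u.2)
    rw [this, map_one]
  have e1 := (Prod.ext_iff.1 he).1
  have e2 := (Prod.ext_iff.1 he).2
  simp only [f, decide_eq_decide] at e1 e2
  refine ext_char ?_ ?_ ?_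
  · exact two_vals (sq _ _) (sq _ _) ⟨fun h => absurd h (hT χ hχ), fun h => absurd h (hT χ' hχ')⟩
  · exact two_vals (sq _ _) (sq _ _) e1
  · exact two_vals (sq _ _) (sq _ _) e2

variable {W : Type*} [AddCommGroup W] [Module K W] (ρ : L →* Module.End K W) [FiniteDimensional K W]
  [IsAlgClosed K] [Finite L] {p : ℕ} [CharP K p]

/-- **Frobenius pairs, linear version.** -/
theorem FP.lin1 (hp : p.Prime) (hpr : ¬ p ∣ r) (h : FP r x a) (hx : x ^ p = 1) (ha : ρ a ≠ 1) :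
    finrank K (LinearMap.ker (ρ x - 1)) + (p - 1) ≤ finrank K W := by
  have hN : (Nat.card (FA x a) : K) ≠ 0 := by
    rw [Ne, CharP.cast_eq_zero_iff K p]
    exact h.card_ne hp hpr
  obtain ⟨χ, hχ, hχa⟩ := exists_wc ρ h.comm hN (c := ⟨a, g0 x a⟩) ha
  have h1 := wt_codim ρ h.comm hN h.norm hp hx (h.moved hχa)
  have h2 : 1 ≤ finrank K (wc ρ (FA x a) χ) := by
    rw [Nat.one_le_iff_ne_zero, Ne, Submodule.finrank_eq_zero]
    exact hχ
  calc finrank K (LinearMap.ker (ρ x - 1)) + (p - 1) = finrank K (LinearMap.ker (ρ x - 1)) + (p - 1) * 1 := by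
        rw [mul_one]
    _ ≤ finrank K (LinearMap.ker (ρ x - 1)) + (p - 1) * finrank K (wc ρ (FA x a) χ) :=
        Nat.add_le_add_left (Nat.mul_le_mul_left _ h2) _
    _ ≤ _ := h1

/-- **Frobenius pairs, `r = 2`, linear version.** -/
theorem FP.lin2 (hp : p.Prime) (h2 : p ≠ 2) (h : FP 2 x a) (hx : x ^ p = 1)
    (hb : finrank K W < finrank K (LinearMap.ker (ρ x - 1)) + 2 * (p - 1)) :
    finrank K W ≤ finrank K (LinearMap.ker (ρ a - 1)) + 4 := by
  classical
  have hN : (Nat.card (FA x a) : K) ≠ 0 := by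
    rw [Ne, CharP.cast_eq_zero_iff K p]
    exact h.card_ne hp fun hd => h2 ((Nat.prime_dvd_prime_iff_eq hp Nat.prime_two).1 hd)
  haveI : Fintype (FA x a →* Kˣ) := Fintype.ofFinite _
  have h1 := codim_le ρ h.comm hN ⟨a, g0 x a⟩ (Finset.univ.filter fun χ : FA x a →* Kˣ => χ ⟨a, g0 x a⟩ ≠ 1)
    (fun χ hχ => Finset.mem_filter.2 ⟨Finset.mem_univ _, hχ⟩)
  refine h1.trans (Nat.add_le_add_left ?_ _)
  calc _ ≤ ∑ χ ∈ Finset.univ.filter (fun χ : FA x a →* Kˣ => χ ⟨a, g0 x a⟩ ≠ 1), 1 := by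
        refine Finset.sum_le_sum fun χ hχ => ?_
        have h3 := wt_codim ρ h.comm hN h.norm hp hx (h.moved (Finset.mem_filter.1 hχ).2)
        by_contra hcon
        have h4 : (p - 1) * 2 ≤ (p - 1) * finrank K (wc ρ (FA x a) χ) := Nat.mul_le_mul_left _ (by omega)
        omega
    _ = (Finset.univ.filter (fun χ : FA x a →* Kˣ => χ ⟨a, g0 x a⟩ ≠ 1)).card := by
        rw [Finset.sum_const, smul_eq_mul, mul_one]
    _ ≤ 4 := card_char_le h _ fun χ hχ => (Finset.mem_filter.1 hχ).2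

omit [Finite L] [IsAlgClosed K] in
/-- the product of two conjugates -/
theorem codim_mul (a y : L) {e : ℕ} (h : finrank K W ≤ finrank K (LinearMap.ker (ρ a - 1)) + e) :
    finrank K W ≤ finrank K (LinearMap.ker (ρ (a * (y * a * y⁻¹)) - 1)) + 2 * e := by
  have hmem : ∀ (g : L) (v : W), v ∈ LinearMap.ker (ρ g - 1) ↔ ρ g v = v := by
    intro g v
    rw [LinearMap.mem_ker, LinearMap.sub_apply, Module.End.one_apply, sub_eq_zero]
  have h1 : finrank K (LinearMap.ker (ρ a - 1)) ≤ finrank K (LinearMap.ker (ρ (y * a * y⁻¹) - 1)) := by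
    have h2 : (LinearMap.ker (ρ a - 1)).map (ρ y) ≤ LinearMap.ker (ρ (y * a * y⁻¹) - 1) := by
      rintro _ ⟨v, hv, rfl⟩
      rw [hmem, map_mul, map_mul, Module.End.mul_apply, Module.End.mul_apply]
      have h3 : ρ y⁻¹ (ρ y v) = v := by
        rw [← Module.End.mul_apply, ← map_mul, inv_mul_cancel, map_one]; rfl
      rw [h3, (hmem a v).1 hv]
    exact (LinearEquiv.finrank_eq (Submodule.equivMapOfInjective (ρ y) (rho_injective ρ y) _)).trans_le
      (Submodule.finrank_mono h2)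
  have h2 := Submodule.finrank_sup_add_finrank_inf_eq (LinearMap.ker (ρ a - 1)) (LinearMap.ker (ρ (y * a * y⁻¹) - 1))
  have h3 := Submodule.finrank_le (LinearMap.ker (ρ a - 1) ⊔ LinearMap.ker (ρ (y * a * y⁻¹) - 1))
  have h4 : finrank K ↥(LinearMap.ker (ρ a - 1) ⊓ LinearMap.ker (ρ (y * a * y⁻¹) - 1)) ≤
      finrank K (LinearMap.ker (ρ (a * (y * a * y⁻¹)) - 1)) := by
    refine Submodule.finrank_mono ?_
    rintro v ⟨hv1, hv2⟩
    rw [hmem, map_mul, Module.End.mul_apply, (hmem _ v).1 hv2, (hmem _ v).1 hv1]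
  omega

end fp

end Cfsg.Agent.H572.RIM
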