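import Mathlib

/-!
# Lifting a Frobenius pair to a central extension (helper572, for S4816)

`FP r x a` : `a ^ r = 1`, `a` commutes with `x a x⁻¹` and `x² a x⁻²`, `x³ a x⁻³ = a (x a x⁻¹)`.

`FP.lift` : if `π : H → S` has central kernel, then for every `x` in `H` a pair `FP r (π x) a` lifts to `FP r x â`.
-/

set_option autoImplicit false
set_option linter.unusedSectionVars false

namespace Cfsg.Agent.H572.RIM

/-- A Frobenius pair -/
structure FP {L : Type*} [Group L] (r : ℕ) (x a : L) : Prop where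
  rel : x ^ 3 * a = a * (x * a * x⁻¹) * x ^ 3
  c1 : a * (x * a * x⁻¹) = (x * a * x⁻¹) * a
  c2 : a * (x ^ 2 * a * (x ^ 2)⁻¹) = (x ^ 2 * a * (x ^ 2)⁻¹) * a
  ar : a ^ r = 1

variable {L : Type*} [Group L]

theorem FP.congr {L' : Type*} [Group L'] {r : ℕ} {x a : L} (h : FP r x a) (e : L →* L') : FP r (e x) (e a) := by
  refine ⟨?_, ?_, ?_, ?_⟩
  · simpa only [map_mul, map_pow, map_inv] using congrArg e h.rel
  · simpa only [map_mul, map_pow, map_inv] using congrArg e h.c1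
  · simpa only [map_mul, map_pow, map_inv] using congrArg e h.c2
  · rw [← map_pow, h.ar, map_one]

/-- the third conjugate -/
theorem FP.third {r : ℕ} {x a : L} (h : FP r x a) : x ^ 3 * a * (x ^ 3)⁻¹ = a * (x * a * x⁻¹) := by
  rw [h.rel, mul_inv_cancel_right]

/-- the computation in a central extension -/
theorem comm_calc {H : Type*} [Group H] {x α c d k : H} (hc : ∀ h : H, c * h = h * c) (hd : ∀ h : H, d * h = h * d)
    (hk : ∀ h : H, k * h = h * k) (h1 : α * (x * α * x⁻¹) = c * ((x * α * x⁻¹) * α))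
    (h2 : α * (x * (x * α * x⁻¹) * x⁻¹) = d * ((x * (x * α * x⁻¹) * x⁻¹) * α))
    (h3 : x * (x * (x * α * x⁻¹) * x⁻¹) * x⁻¹ = α * (x * α * x⁻¹) * k) : c = 1 ∧ d = 1 := by
  obtain ⟨β, hβ⟩ : ∃ β, β = x * α * x⁻¹ := ⟨_, rfl⟩
  obtain ⟨γ, hγ⟩ : ∃ γ, γ = x * β * x⁻¹ := ⟨_, rfl⟩
  obtain ⟨δ, hδ⟩ : ∃ δ, δ = x * γ * x⁻¹ := ⟨_, rfl⟩
  rw [← hβ] at h1 h2 h3
  rw [← hγ] at h2 h3
  rw [← hδ] at h3
  -- conjugation by `x`
  have cj : ∀ u v e : H, (∀ h : H, e * h = h * e) → u * v = e * (v * u) →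
      (x * u * x⁻¹) * (x * v * x⁻¹) = e * ((x * v * x⁻¹) * (x * u * x⁻¹)) := by
    intro u v e he h
    have h4 : (x * u * x⁻¹) * (x * v * x⁻¹) = x * (u * v) * x⁻¹ := by group
    have h5 : (x * v * x⁻¹) * (x * u * x⁻¹) = x * (v * u) * x⁻¹ := by group
    rw [h4, h5, h, ← mul_assoc, ← he x]
    group
  have e1 := cj _ _ _ hc h1
  rw [← hβ, ← hγ] at e1
  have e2 := cj _ _ _ hc e1
  rw [← hγ, ← hδ] at e2
  have e3 := cj _ _ _ hd h2
  rw [← hβ, ← hδ] at e3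
  -- `e1 : β γ = c γ β`, `e2 : γ δ = c δ γ`, `e3 : β δ = d δ β`
  rw [h3] at e2 e3
  have a1 : β * α = d * (α * β) := by
    have h4 : β * (α * β * k) = (β * α) * (β * k) := by group
    have h5 : d * (α * β * k * β) = (d * (α * β)) * (β * k) := by
      rw [mul_assoc (α * β) k β, hk β]
      group
    rw [h4, h5] at e3
    exact mul_right_cancel e3
  have a2 : c * d = 1 := by
    rw [a1, ← mul_assoc] at h1
    have h4 : 1 * (α * β) = (c * d) * (α * β) := by rw [one_mul]; exact h1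
    exact (mul_right_cancel h4).symm
  have a3 : γ * (α * β) = c * (α * β) * γ := by
    have h4 : γ * (α * β * k) = (γ * (α * β)) * k := by group
    have h5 : c * (α * β * k * γ) = (c * (α * β) * γ) * k := by
      rw [mul_assoc (α * β) k γ, hk γ]
      group
    rw [h4, h5] at e2
    exact mul_right_cancel e2
  have a4 : α * β * γ = (d * c) * (γ * (α * β)) := by
    calc α * β * γ = α * (β * γ) := mul_assoc _ _ _
      _ = α * (c * (γ * β)) := by rw [e1]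
      _ = c * (α * γ * β) := by rw [← mul_assoc, ← hc α]; group
      _ = c * (d * (γ * α) * β) := by rw [h2]
      _ = (c * d) * (γ * (α * β)) := by group
      _ = (d * c) * (γ * (α * β)) := by rw [hc d]
  have a5 : d * c = 1 := by rw [← hc d]; exact a2
  rw [a5, one_mul] at a4
  rw [← a4] at a3
  have a6 : c = 1 := by
    have h4 : 1 * (α * β * γ) = c * (α * β * γ) := by
      rw [one_mul, ← mul_assoc c]
      exact a3
    exact (mul_right_cancel h4).symm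
  rw [a6, one_mul] at a2
  exact ⟨a6, a2⟩

/-- **Frobenius pairs lift to central extensions.** -/
theorem FP.lift {H S : Type*} [Group H] [Group S] {π : H →* S} (hπ : Function.Surjective π)
    (hcen : ∀ k, π k = 1 → ∀ h : H, k * h = h * k) {r : ℕ} {x : H} {a : S} (h : FP r (π x) a) :
    ∃ α : H, π α = a ∧ FP r x α := by
  obtain ⟨α, hα⟩ := hπ a
  obtain ⟨c, hc⟩ : ∃ c, c = α * (x * α * x⁻¹) * ((x * α * x⁻¹) * α)⁻¹ := ⟨_, rfl⟩
  obtain ⟨d, hd⟩ : ∃ d, d = α * (x * (x * α * x⁻¹) * x⁻¹) * ((x * (x * α * x⁻¹) * x⁻¹) * α)⁻¹ := ⟨_, rfl⟩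
  obtain ⟨k, hk⟩ : ∃ k, k = (α * (x * α * x⁻¹))⁻¹ * (x * (x * (x * α * x⁻¹) * x⁻¹) * x⁻¹) := ⟨_, rfl⟩
  have hx2 : ∀ u : S, π x * (π x * u * (π x)⁻¹) * (π x)⁻¹ = π x ^ 2 * u * (π x ^ 2)⁻¹ := by
    intro u
    rw [pow_two]
    group
  have hx3 : ∀ u : S, π x * (π x * (π x * u * (π x)⁻¹) * (π x)⁻¹) * (π x)⁻¹ = π x ^ 3 * u * (π x ^ 3)⁻¹ := by
    intro u
    rw [pow_succ, pow_two]
    group
  have kc : π c = 1 := by
    rw [hc]
    simp only [map_mul, map_inv, hα]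
    rw [h.c1, mul_inv_cancel]
  have kd : π d = 1 := by
    rw [hd]
    simp only [map_mul, map_inv, hα]
    rw [hx2, h.c2, mul_inv_cancel]
  have kk : π k = 1 := by
    rw [hk]
    simp only [map_mul, map_inv, hα]
    rw [hx3, h.third, inv_mul_cancel]
  have hcc := hcen c kc
  have hdc := hcen d kd
  have hkc := hcen k kk
  obtain ⟨c1, d1⟩ := comm_calc (x := x) (α := α) hcc hdc hkc (by rw [hc, inv_mul_cancel_right])
    (by rw [hd, inv_mul_cancel_right]) (by rw [hk, mul_inv_cancel_left])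
  rw [c1] at hc
  rw [d1] at hd
  have f1 : α * (x * α * x⁻¹) = (x * α * x⁻¹) * α := (mul_inv_eq_one.1 hc.symm)
  have f2 : α * (x * (x * α * x⁻¹) * x⁻¹) = (x * (x * α * x⁻¹) * x⁻¹) * α := (mul_inv_eq_one.1 hd.symm)
  have f3 : x * (x * (x * α * x⁻¹) * x⁻¹) * x⁻¹ = α * (x * α * x⁻¹) * k := by rw [hk, mul_inv_cancel_left]
  have mk : ∀ u : H, x * (u * k) * x⁻¹ = (x * u * x⁻¹) * k := by
    intro u
    rw [← mul_assoc, mul_assoc (x * u), hkc x⁻¹, ← mul_assoc]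
  have g1 : x * (α * k) * x⁻¹ = (x * α * x⁻¹) * k := mk α
  have cc : ∀ u v : H, u * v = v * u → (u * k) * (v * k) = (v * k) * (u * k) := by
    intro u v huv
    have h1 : (u * k) * (v * k) = (u * v) * (k * k) := by
      rw [mul_assoc u k, ← mul_assoc k v, hkc v]
      group
    have h2 : (v * k) * (u * k) = (v * u) * (k * k) := by
      rw [mul_assoc v k, ← mul_assoc k u, hkc u]
      group
    rw [h1, h2, huv]
  have g2 : x ^ 2 * (α * k) * (x ^ 2)⁻¹ = (x * (x * α * x⁻¹) * x⁻¹) * k := by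
    have h1 : x ^ 2 * (α * k) * (x ^ 2)⁻¹ = x * (x * (α * k) * x⁻¹) * x⁻¹ := by rw [pow_two]; group
    rw [h1, mk, mk]
  have g3 : x ^ 3 * (α * k) = ((α * k) * ((x * α * x⁻¹) * k)) * x ^ 3 := by
    have h1 : x ^ 3 * (α * k) * (x ^ 3)⁻¹ = x * (x * (x * (α * k) * x⁻¹) * x⁻¹) * x⁻¹ := by
      rw [pow_succ, pow_two]; group
    have h2 : x * (x * (x * (α * k) * x⁻¹) * x⁻¹) * x⁻¹ = (x * (x * (x * α * x⁻¹) * x⁻¹) * x⁻¹) * k := by
      rw [mk, mk, mk]
    rw [h2, f3] at h1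
    have h3 : (α * k) * ((x * α * x⁻¹) * k) = α * (x * α * x⁻¹) * k * k := by
      rw [mul_assoc α k, ← mul_assoc k, hkc (x * α * x⁻¹)]
      group
    rw [h3, ← h1, inv_mul_cancel_right]
  have s1 : (α * k) * (x * (α * k) * x⁻¹) = (x * (α * k) * x⁻¹) * (α * k) := by rw [g1]; exact cc _ _ f1
  refine ⟨α * k, by rw [map_mul, hα, kk, mul_one], ?_, s1, ?_, ?_⟩
  · rw [g1]; exact g3
  · rw [g2]; exact cc _ _ f2
  · -- the power
    obtain ⟨m, hm⟩ : ∃ m, m = (α * k) ^ r := ⟨_, rfl⟩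
    have km : π m = 1 := by rw [hm, map_pow, map_mul, hα, kk, mul_one, h.ar]
    have hmc := hcen m km
    have h1 : (x * (α * k) * x⁻¹) ^ r = m := by
      rw [conj_pow, ← hm, ← hmc x, mul_inv_cancel_right]
    have h2 : (x ^ 3 * (α * k) * (x ^ 3)⁻¹) ^ r = m := by
      rw [conj_pow, ← hm, ← hmc (x ^ 3), mul_inv_cancel_right]
    have h3 : x ^ 3 * (α * k) * (x ^ 3)⁻¹ = (α * k) * (x * (α * k) * x⁻¹) := by
      rw [g3, mul_inv_cancel_right, g1]
    rw [h3, (show Commute (α * k) (x * (α * k) * x⁻¹) from s1).mul_pow, h1, ← hm] at h2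
    rw [← hm]
    exact mul_eq_left.1 h2

end Cfsg.Agent.H572.RIM
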