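import Mathlib
import Cfsg.Prelude.Def_Classical
import Cfsg.Agent.UGT.U2.Rec.Congr

/-!
# Elements of `Ω₇(3)` (helper572, for S4816)

* `data7` : `x` of order `7`, an involution `a` with `x³ a x⁻³ = a (x a x⁻¹)` (a Frobenius group `2³ : 7`), inverting an
  element `y` of order `13`;
* `data13` : `x` of order `13`, `a` of order `3` with `x³ a x⁻³ = a (x a x⁻¹)` (a Frobenius group `3³ : 13`).
-/

set_option autoImplicit false
set_option linter.unusedSectionVars false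

namespace Cfsg.Agent.H572.RIM.O73

open Cfsg Matrix

abbrev I7 := Unit ⊕ (Fin 3 ⊕ Fin 3)

abbrev M7 := Matrix I7 I7 (ZMod 3)

/-- the position of an index -/
def ps : I7 → Fin 7
  | .inl _ => 0
  | .inr (.inl i) => ⟨i.1 + 1, by omega⟩
  | .inr (.inr i) => ⟨i.1 + 4, by omega⟩

/-- a matrix from its table -/
def tb (A : Matrix (Fin 7) (Fin 7) (ZMod 3)) : M7 := Matrix.of fun i j => A (ps i) (ps j)

/-- the matrix of the polar form -/
def bp : M7 := tb !![2, 0, 0, 0, 0, 0, 0; 0, 0, 0, 0, 1, 0, 0; 0, 0, 0, 0, 0, 1, 0; 0, 0, 0, 0, 0, 0, 1; 0, 1, 0, 0, 0, 0, 0; 0, 0, 1, 0, 0, 0, 0; 0, 0, 0, 1, 0, 0, 0]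

def mD : M7 := tb !![1, 2, 0, 1, 0, 1, 0; 0, 2, 0, 0, 0, 0, 0; 2, 0, 1, 2, 0, 0, 1; 0, 1, 0, 2, 0, 1, 0; 1, 1, 2, 0, 2, 0, 1; 0, 2, 0, 0, 0, 1, 0; 2, 0, 0, 1, 0, 2, 2]
def mX : M7 := tb !![1, 0, 1, 2, 1, 0, 0; 2, 2, 0, 1, 2, 1, 1; 1, 0, 2, 1, 1, 1, 0; 0, 2, 2, 2, 2, 1, 0; 1, 0, 2, 2, 1, 1, 0; 1, 2, 2, 0, 0, 1, 2; 1, 0, 2, 0, 0, 1, 0]
def mX' : M7 := tb !![1, 2, 2, 2, 1, 2, 0; 2, 1, 0, 0, 2, 1, 2; 0, 1, 1, 1, 1, 1, 1; 0, 0, 2, 0, 1, 0, 0; 0, 0, 2, 0, 2, 0, 2; 2, 2, 2, 2, 0, 2, 2; 1, 2, 0, 0, 1, 1, 2]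
def mT : M7 := tb !![0, 1, 2, 2, 2, 1, 0; 1, 2, 0, 0, 1, 1, 1; 2, 1, 1, 1, 1, 2, 2; 0, 0, 2, 2, 1, 2, 1; 2, 0, 2, 0, 2, 1, 0; 1, 2, 2, 0, 0, 1, 2; 1, 0, 0, 1, 0, 1, 2]
def mY : M7 := tb !![2, 1, 0, 1, 1, 2, 2; 0, 1, 0, 1, 2, 0, 1; 0, 1, 0, 1, 0, 0, 0; 2, 1, 2, 1, 2, 1, 1; 1, 1, 0, 2, 1, 2, 2; 1, 1, 0, 0, 2, 1, 2; 0, 0, 0, 0, 0, 2, 0]
def mY' : M7 := tb !![2, 2, 2, 0, 0, 0, 1; 2, 1, 2, 0, 2, 0, 2; 1, 2, 1, 2, 0, 0, 1; 1, 2, 2, 0, 1, 0, 1; 2, 1, 1, 0, 1, 1, 1; 0, 0, 0, 0, 0, 0, 2; 2, 2, 0, 0, 1, 1, 1]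
def mZ : M7 := tb !![1, 0, 0, 0, 0, 0, 0; 0, 0, 2, 1, 0, 0, 0; 0, 1, 0, 2, 0, 0, 0; 0, 0, 2, 2, 0, 0, 0; 0, 0, 0, 0, 2, 1, 2; 0, 0, 0, 0, 1, 0, 0; 0, 0, 0, 0, 1, 1, 1]
def mZ' : M7 := tb !![1, 0, 0, 0, 0, 0, 0; 0, 2, 1, 1, 0, 0, 0; 0, 1, 0, 1, 0, 0, 0; 0, 2, 0, 1, 0, 0, 0; 0, 0, 0, 0, 0, 1, 0; 0, 0, 0, 0, 2, 0, 2; 0, 0, 0, 0, 1, 2, 2]
def mN : M7 := tb !![1, 0, 0, 0, 0, 0, 0; 0, 1, 0, 0, 0, 1, 0; 0, 0, 1, 0, 2, 0, 0; 0, 0, 0, 1, 0, 0, 0; 0, 0, 0, 0, 1, 0, 0; 0, 0, 0, 0, 0, 1, 0; 0, 0, 0, 0, 0, 0, 1]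
def mN' : M7 := tb !![1, 0, 0, 0, 0, 0, 0; 0, 1, 0, 0, 0, 2, 0; 0, 0, 1, 0, 1, 0, 0; 0, 0, 0, 1, 0, 0, 0; 0, 0, 0, 0, 1, 0, 0; 0, 0, 0, 0, 0, 1, 0; 0, 0, 0, 0, 0, 0, 1]
def mS : M7 := tb !![1, 0, 0, 0, 0, 0, 0; 0, 0, 0, 0, 0, 0, 1; 0, 0, 0, 0, 0, 1, 0; 0, 0, 0, 0, 1, 0, 2; 0, 1, 0, 1, 0, 0, 0; 0, 0, 1, 0, 0, 0, 0; 0, 1, 0, 0, 0, 0, 0]

local instance fact_three : Fact (Nat.Prime 3) := ⟨by norm_num⟩

theorem q_eq (v : I7 → ZMod 3) : quadFormOdd 3 (ZMod 3) v = 2 * (v ⬝ᵥ (bp *ᵥ v)) := by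
  have h4 : (4 : ZMod 3) = 1 := by decide
  have h5 : v ⬝ᵥ (bp *ᵥ v) = 2 * quadFormOdd 3 (ZMod 3) v := by
    simp only [quadFormOdd, dotProduct, mulVec, Fintype.sum_sum_type, Fin.sum_univ_three, Finset.univ_unique,
      Finset.sum_singleton, bp, tb, ps, Matrix.of_apply]
    simp
    ring
  rw [h5, ← mul_assoc, show (2 : ZMod 3) * 2 = 4 by norm_num, h4, one_mul]

theorem iso_of {m : M7} (hm : mᵀ * bp * m = bp) (v : I7 → ZMod 3) :
    quadFormOdd 3 (ZMod 3) (m *ᵥ v) = quadFormOdd 3 (ZMod 3) v := by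
  rw [q_eq, q_eq, Matrix.mulVec_mulVec, Matrix.dotProduct_mulVec, Matrix.vecMul_mulVec, ← Matrix.dotProduct_mulVec,
    ← mul_assoc, hm]

/-- the isometry group -/
abbrev G7 := isometryGroup (ZMod 3) (quadFormOdd 3 (ZMod 3))

/-- an isometry from its matrix -/
def el (m m' : M7) (h : m * m' = 1) (h' : m' * m = 1) (hm : mᵀ * bp * m = bp) : G7 :=
  ⟨⟨m, m', h, h'⟩, fun u _ => iso_of hm u⟩

/-- the matrix of an isometry -/
def mt (g : G7) : M7 := ((g : Matrix.GeneralLinearGroup I7 (ZMod 3)) : M7)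

theorem mt_mul (g h : G7) : mt (g * h) = mt g * mt h := rfl

theorem mt_one : mt 1 = 1 := rfl

theorem mt_inj {g h : G7} (e : mt g = mt h) : g = h := Subtype.ext (Units.ext e)

theorem mt_el {m m' : M7} {h : m * m' = 1} {h' : m' * m = 1} {hm : mᵀ * bp * m = bp} : mt (el m m' h h' hm) = m := rfl

theorem mt_inv_el {m m' : M7} {h : m * m' = 1} {h' : m' * m = 1} {hm : mᵀ * bp * m = bp} :
    mt (el m m' h h' hm)⁻¹ = m' := rfl

set_option maxRecDepth 100000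

def eD : G7 := el mD mD (by decide +kernel) (by decide +kernel) (by decide +kernel)
def eX : G7 := el mX mX' (by decide +kernel) (by decide +kernel) (by decide +kernel)
def eT : G7 := el mT mT (by decide +kernel) (by decide +kernel) (by decide +kernel)
def eY : G7 := el mY mY' (by decide +kernel) (by decide +kernel) (by decide +kernel)
def eZ : G7 := el mZ mZ' (by decide +kernel) (by decide +kernel) (by decide +kernel)
def eN : G7 := el mN mN' (by decide +kernel) (by decide +kernel) (by decide +kernel)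
def eS : G7 := el mS mS (by decide +kernel) (by decide +kernel) (by decide +kernel)

theorem mt_pow (g : G7) (n : ℕ) : mt (g ^ n) = mt g ^ n := by
  induction n with
  | zero => rfl
  | succ n ih => rw [pow_succ, pow_succ, mt_mul, ih]

theorem x7 : eX ^ 7 = 1 := mt_inj (by rw [mt_pow]; show mX ^ 7 = 1; decide +kernel)
theorem y13 : eY ^ 13 = 1 := mt_inj (by rw [mt_pow]; show mY ^ 13 = 1; decide +kernel)
theorem z13 : eZ ^ 13 = 1 := mt_inj (by rw [mt_pow]; show mZ ^ 13 = 1; decide +kernel)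

/-- an element inverted by an isometry, of odd order -/
theorem mem_of_inv {G : Type*} [Group G] {x t : G} (h : t * x = x⁻¹ * t) {k : ℕ} (hk : x ^ (2 * k + 1) = 1) :
    x ∈ commutator G := by
  have h1 : t * x * t⁻¹ = x⁻¹ := by rw [h, mul_inv_cancel_right]
  have h2 : t * x ^ k * t⁻¹ = (x ^ k)⁻¹ := by rw [← conj_pow, h1, inv_pow]
  have h3 : x = t * x ^ k * t⁻¹ * (x ^ k)⁻¹ := by
    rw [h2, ← _root_.mul_inv_rev, ← pow_add, eq_inv_iff_mul_eq_one, ← pow_succ', ← two_mul]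
    exact hk
  rw [h3]
  exact Subgroup.commutator_mem_commutator (Subgroup.mem_top t) (Subgroup.mem_top (x ^ k))

/-- `a` with `x³ a x⁻³ = a (x a x⁻¹)` -/
theorem mem_of_rel {G : Type*} [Group G] {x a : G} (h : x ^ 3 * a = a * (x * a * x⁻¹) * x ^ 3) :
    a ∈ commutator G := by
  have h1 : a = x ^ 3 * a * (x ^ 3)⁻¹ * (x * a * x⁻¹)⁻¹ := by
    rw [h, mul_inv_cancel_right, mul_inv_cancel_right]
  have h2 : a = x * (x ^ 2 * a * (x ^ 2)⁻¹ * a⁻¹) * x⁻¹ := by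
    nth_rewrite 1 [h1]
    group
  have h3 : x ^ 2 * a * (x ^ 2)⁻¹ * a⁻¹ ∈ commutator G :=
    Subgroup.commutator_mem_commutator (Subgroup.mem_top _) (Subgroup.mem_top _)
  rw [h2]
  exact (inferInstance : (commutator G).Normal).conj_mem _ h3 x

theorem rel7 : eX ^ 3 * eD = eD * (eX * eD * eX⁻¹) * eX ^ 3 := mt_inj (by
  rw [mt_mul, mt_mul, mt_mul, mt_mul, mt_mul, mt_pow]
  show mX ^ 3 * mD = mD * (mX * mD * mX') * mX ^ 3
  decide +kernel)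

theorem com7 : eD * (eX * eD * eX⁻¹) = (eX * eD * eX⁻¹) * eD := mt_inj (by
  show mD * (mX * mD * mX') = (mX * mD * mX') * mD
  decide +kernel)

theorem com7' : eD * (eX ^ 2 * eD * (eX ^ 2)⁻¹) = (eX ^ 2 * eD * (eX ^ 2)⁻¹) * eD := mt_inj (by
  rw [pow_two, _root_.mul_inv_rev]
  show mD * (mX * mX * mD * (mX' * mX')) = (mX * mX * mD * (mX' * mX')) * mD
  decide +kernel)

theorem tx : eT * eX = eX⁻¹ * eT := mt_inj (by
  show mT * mX = mX' * mT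
  decide +kernel)

theorem dy : eD * eY = eY⁻¹ * eD := mt_inj (by
  show mD * mY = mY' * mD
  decide +kernel)

theorem dd : eD * eD = 1 := mt_inj (by
  show mD * mD = 1
  decide +kernel)

theorem dx_ne : eD * eX ≠ eX * eD := by
  intro h
  have h1 := congrArg mt h
  revert h1
  show ¬ (mD * mX = mX * mD)
  decide +kernel

theorem y_ne : eD * eY ≠ eY * eD := by
  intro h
  have h1 := congrArg mt h
  revert h1
  show ¬ (mD * mY = mY * mD)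
  decide +kernel

theorem rel13 : eZ ^ 3 * eN = eN * (eZ * eN * eZ⁻¹) * eZ ^ 3 := mt_inj (by
  rw [mt_mul, mt_mul, mt_mul, mt_mul, mt_mul, mt_pow]
  show mZ ^ 3 * mN = mN * (mZ * mN * mZ') * mZ ^ 3
  decide +kernel)

theorem com13 : eN * (eZ * eN * eZ⁻¹) = (eZ * eN * eZ⁻¹) * eN := mt_inj (by
  show mN * (mZ * mN * mZ') = (mZ * mN * mZ') * mN
  decide +kernel)

theorem com13' : eN * (eZ ^ 2 * eN * (eZ ^ 2)⁻¹) = (eZ ^ 2 * eN * (eZ ^ 2)⁻¹) * eN := mt_inj (by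
  rw [pow_two, _root_.mul_inv_rev]
  show mN * (mZ * mZ * mN * (mZ' * mZ')) = (mZ * mZ * mN * (mZ' * mZ')) * mN
  decide +kernel)

theorem sz : eS * eZ = eZ⁻¹ * eS := mt_inj (by
  show mS * mZ = mZ' * mS
  decide +kernel)

theorem n3 : eN ^ 3 = 1 := mt_inj (by rw [mt_pow]; show mN ^ 3 = 1; decide +kernel)

theorem nz_ne : eN * eZ ≠ eZ * eN := by
  intro h
  have h1 := congrArg mt h
  revert h1
  show ¬ (mN * mZ = mZ * mN)
  decide +kernel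

/-- `Ω₇(3)` -/
abbrev PO := POmega (ZMod 3) (quadFormOdd 3 (ZMod 3))

/-- the class in `PΩ` of an element of the commutator subgroup -/
def pr : commutator G7 →* PO := QuotientGroup.mk' _

theorem pr_ne_one {a b : commutator G7} (h : (a : G7) * b ≠ b * a) : pr a ≠ 1 := by
  intro h1
  have h2 : a ∈ Subgroup.center (commutator G7) := (QuotientGroup.eq_one_iff a).1 h1
  exact h (congrArg Subtype.val (Subgroup.mem_center_iff.1 h2 b)).symm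

theorem data7 : ∃ x a y : PO, orderOf x = 7 ∧ orderOf y = 13 ∧ a * a = 1 ∧ a ≠ 1 ∧
    x ^ 3 * a = a * (x * a * x⁻¹) * x ^ 3 ∧ a * (x * a * x⁻¹) = (x * a * x⁻¹) * a ∧
    a * (x ^ 2 * a * (x ^ 2)⁻¹) = (x ^ 2 * a * (x ^ 2)⁻¹) * a ∧ a * y = y⁻¹ * a := by
  have hX : eX ∈ commutator G7 := mem_of_inv tx (k := 3) x7
  have hD : eD ∈ commutator G7 := mem_of_rel rel7
  have hY : eY ∈ commutator G7 := mem_of_inv dy (k := 6) y13
  have hf7 : Fact (Nat.Prime 7) := ⟨by norm_num⟩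
  have hf13 : Fact (Nat.Prime 13) := ⟨by norm_num⟩
  obtain ⟨x, hx⟩ : ∃ x : commutator G7, x = ⟨eX, hX⟩ := ⟨_, rfl⟩
  obtain ⟨a, ha⟩ : ∃ a : commutator G7, a = ⟨eD, hD⟩ := ⟨_, rfl⟩
  obtain ⟨y, hy⟩ : ∃ y : commutator G7, y = ⟨eY, hY⟩ := ⟨_, rfl⟩
  have c1 : (x : G7) = eX := by rw [hx]
  have c2 : (a : G7) = eD := by rw [ha]
  have c3 : (y : G7) = eY := by rw [hy]
  refine ⟨pr x, pr a, pr y, ?_, ?_, ?_, ?_, ?_, ?_, ?_, ?_⟩
  · refine orderOf_eq_prime ?_ ?_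
    · rw [← map_pow]
      have : x ^ 7 = 1 := Subtype.ext (by rw [SubgroupClass.coe_pow, c1]; exact x7)
      rw [this, map_one]
    · exact pr_ne_one (b := a) (by rw [c1, c2]; exact dx_ne.symm)
  · refine orderOf_eq_prime ?_ ?_
    · rw [← map_pow]
      have : y ^ 13 = 1 := Subtype.ext (by rw [SubgroupClass.coe_pow, c3]; exact y13)
      rw [this, map_one]
    · exact pr_ne_one (b := a) (by rw [c3, c2]; exact y_ne.symm)
  · rw [← map_mul]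
    have : a * a = 1 := Subtype.ext (by rw [Subgroup.coe_mul, c2]; exact dd)
    rw [this, map_one]
  · exact pr_ne_one (b := x) (by rw [c1, c2]; exact dx_ne)
  · have : x ^ 3 * a = a * (x * a * x⁻¹) * x ^ 3 := Subtype.ext (by
      simp only [Subgroup.coe_mul, SubgroupClass.coe_pow, InvMemClass.coe_inv, c1, c2]
      exact rel7)
    simpa only [map_mul, map_pow, map_inv] using congrArg pr this
  · have : a * (x * a * x⁻¹) = (x * a * x⁻¹) * a := Subtype.ext (by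
      simp only [Subgroup.coe_mul, SubgroupClass.coe_pow, InvMemClass.coe_inv, c1, c2]
      exact com7)
    simpa only [map_mul, map_pow, map_inv] using congrArg pr this
  · have : a * (x ^ 2 * a * (x ^ 2)⁻¹) = (x ^ 2 * a * (x ^ 2)⁻¹) * a := Subtype.ext (by
      simp only [Subgroup.coe_mul, SubgroupClass.coe_pow, InvMemClass.coe_inv, c1, c2]
      exact com7')
    simpa only [map_mul, map_pow, map_inv] using congrArg pr this
  · have : a * y = y⁻¹ * a := Subtype.ext (by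
      simp only [Subgroup.coe_mul, InvMemClass.coe_inv, c2, c3]
      exact dy)
    simpa only [map_mul, map_pow, map_inv] using congrArg pr this

theorem data13 : ∃ x a : PO, orderOf x = 13 ∧ a ^ 3 = 1 ∧ a ≠ 1 ∧
    x ^ 3 * a = a * (x * a * x⁻¹) * x ^ 3 ∧ a * (x * a * x⁻¹) = (x * a * x⁻¹) * a ∧
    a * (x ^ 2 * a * (x ^ 2)⁻¹) = (x ^ 2 * a * (x ^ 2)⁻¹) * a := by
  have hX : eZ ∈ commutator G7 := mem_of_inv sz (k := 6) z13
  have hD : eN ∈ commutator G7 := mem_of_rel rel13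
  have hf13 : Fact (Nat.Prime 13) := ⟨by norm_num⟩
  obtain ⟨x, hx⟩ : ∃ x : commutator G7, x = ⟨eZ, hX⟩ := ⟨_, rfl⟩
  obtain ⟨a, ha⟩ : ∃ a : commutator G7, a = ⟨eN, hD⟩ := ⟨_, rfl⟩
  have c1 : (x : G7) = eZ := by rw [hx]
  have c2 : (a : G7) = eN := by rw [ha]
  refine ⟨pr x, pr a, ?_, ?_, ?_, ?_, ?_, ?_⟩
  · refine orderOf_eq_prime ?_ ?_
    · rw [← map_pow]
      have : x ^ 13 = 1 := Subtype.ext (by rw [SubgroupClass.coe_pow, c1]; exact z13)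
      rw [this, map_one]
    · exact pr_ne_one (b := a) (by rw [c1, c2]; exact nz_ne.symm)
  · rw [← map_pow]
    have : a ^ 3 = 1 := Subtype.ext (by rw [SubgroupClass.coe_pow, c2]; exact n3)
    rw [this, map_one]
  · exact pr_ne_one (b := x) (by rw [c1, c2]; exact nz_ne)
  · have : x ^ 3 * a = a * (x * a * x⁻¹) * x ^ 3 := Subtype.ext (by
      simp only [Subgroup.coe_mul, SubgroupClass.coe_pow, InvMemClass.coe_inv, c1, c2]
      exact rel13)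
    simpa only [map_mul, map_pow, map_inv] using congrArg pr this
  · have : a * (x * a * x⁻¹) = (x * a * x⁻¹) * a := Subtype.ext (by
      simp only [Subgroup.coe_mul, SubgroupClass.coe_pow, InvMemClass.coe_inv, c1, c2]
      exact com13)
    simpa only [map_mul, map_pow, map_inv] using congrArg pr this
  · have : a * (x ^ 2 * a * (x ^ 2)⁻¹) = (x ^ 2 * a * (x ^ 2)⁻¹) * a := Subtype.ext (by
      simp only [Subgroup.coe_mul, SubgroupClass.coe_pow, InvMemClass.coe_inv, c1, c2]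
      exact com13')
    simpa only [map_mul, map_pow, map_inv] using congrArg pr this

end Cfsg.Agent.H572.RIM.O73
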