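import Cfsg.Agent.H325.RIM.Surv
import Cfsg.Agent.H325.RIM.EKCongr
import Cfsg.Agent.UGT.U2.Rec.Congr
import Cfsg.Agent.H572.RIM.Ek
import Cfsg.Agent.H572.RIM.O73

/-!
# S4816 (RIM): Ω₇(3), `p = 7` and `p = 13` (helper572)
-/

set_option autoImplicit false
set_option linter.unusedSectionVars false

namespace Cfsg.Agent.H572.RIM

open Cfsg Cfsg.Agent.OrdDiv Cfsg.Agent.H436 Cfsg.Agent.H665.RIM Cfsg.Agent.H325.RIM

universe u

theorem ordN_o73 : ordN (.oodd 3 3) = 4585351680 := by decide +kernel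

/-- transport to the standard group -/
theorem exists_iso {S : Type u} [Group S] (hg : IsNamed (.oodd 3 3) S) :
    Nonempty (S ≃* O73.PO) ∧ Nat.card O73.PO = 4585351680 := by
  obtain ⟨F, i1, i2, hF, ⟨e⟩⟩ := hg.real
  obtain ⟨e'⟩ := Cfsg.Agent.UGT.U2.Rec.Congr.nonempty_POmegaOdd (ZMod.ringEquivOfPrime F Nat.prime_three hF).symm 3
  refine ⟨⟨e.trans e'⟩, ?_⟩
  rw [← Nat.card_congr (e.trans e').toEquiv, hg.ord, ordN_o73]

theorem ek_o73_13' (hc : Nat.card O73.PO = 4585351680) : EK.{0} 13 O73.PO := by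
  obtain ⟨x, a, hx, ha3, ha, h1, h2, h3⟩ := O73.data13
  refine ek_frob1 (r := 3) (by norm_num) (by norm_num) ?_ ?_ hx ⟨h1, h2, h3, ha3⟩ ha
  · rw [hc]; norm_num
  · rw [hc]; norm_num

theorem ek_o73_7' (hc : Nat.card O73.PO = 4585351680) : EK.{0} 7 O73.PO := by
  obtain ⟨x, a, y, hx, hy, ha2, ha, h1, h2, h3, h4⟩ := O73.data7
  refine ek_frob2 (q := 13) (by norm_num) (by norm_num) ?_ ?_ hx ⟨h1, h2, h3, by rw [pow_two]; exact ha2⟩
    (by norm_num) (by norm_num) (by norm_num) hy h4 ?_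
  · rw [hc]; norm_num
  · rw [hc]; norm_num
  · intro k h1 h8
    interval_cases k <;> norm_num

/-- **Ω₇(3), `p = 13`, module side.** -/
theorem ek_o73_13 {S : Type u} [Group S] (hg : IsNamed (.oodd 3 3) S) : EK.{u} 13 S := by
  obtain ⟨⟨e⟩, hc⟩ := exists_iso hg
  exact EK.congr e (ek_o73_13' hc)

/-- **Ω₇(3), `p = 7`, module side.** -/
theorem ek_o73_7 {S : Type u} [Group S] (hg : IsNamed (.oodd 3 3) S) : EK.{u} 7 S := by
  obtain ⟨⟨e⟩, hc⟩ := exists_iso hg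
  exact EK.congr e (ek_o73_7' hc)

theorem killRow_o73_13 : KillRow.{u} 13 (.oodd 3 3) := fun _ _ _ hg => Or.inr (ek_o73_13 hg)

theorem killRow_o73_7 : KillRow.{u} 7 (.oodd 3 3) := fun _ _ _ hg => Or.inr (ek_o73_7 hg)

end Cfsg.Agent.H572.RIM
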